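import Mathlib
import Cfsg.Agent.Lib.Helper8.PSUOut
import Cfsg.Agent.Lib.Helper43.PSLBal.GraphMain

set_option autoImplicit false

/-!
# Local balance for `PSU_n(q)`: the correspondence with `PSL_n` of the fixed field

For a graph-type involution `β = c_g ∘ φ_q` of `PSU_n(q)` (`q` odd), the centralizer of `β` is
compared with a group of automorphisms of `PSL_n(F₀)`, `F₀` the field with `q` elements, through
the relation `Rel`: `c_x ∘ φ_σ` with `x = k A σ(k)⁻¹`, `A ∈ GL_n(F₀)`, corresponds to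
`c_A ∘ φ_{σ|F₀}`.
-/

namespace Cfsg.Agent.Lib.Helper43.PSUBal

open Matrix Cfsg.Agent.Lib.Helper43.AutPSLn Cfsg.Agent.Lib.Helper43.FieldAut
  Cfsg.Agent.Lib.Helper43.AutSp4 Cfsg.Agent.Lib.Helper43.PSLBal Cfsg.Agent.Lib.Helper8

variable {n : ℕ} {F : Type*} [Field F] {q : ℕ} {F₀ : Type*} [Field F₀]

/-! ### Matrix maps -/

theorem mapj_mul (j : F₀ →+* F) (A B : Matrix (Fin n) (Fin n) F₀) :
    (A * B).map j = A.map j * B.map j := Matrix.map_mul

theorem mapj_one (j : F₀ →+* F) : (1 : Matrix (Fin n) (Fin n) F₀).map j = 1 :=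
  Matrix.map_one j (map_zero j) (map_one j)

theorem mapj_smul (j : F₀ →+* F) (c : F₀) (A : Matrix (Fin n) (Fin n) F₀) :
    (c • A).map j = j c • A.map j := by
  ext i l
  simp

theorem mapj_transpose (j : F₀ →+* F) (A : Matrix (Fin n) (Fin n) F₀) :
    (A.map j)ᵀ = Aᵀ.map j := by
  ext i l
  rfl

theorem mapj_injective (j : F₀ →+* F) {A B : Matrix (Fin n) (Fin n) F₀}
    (h : A.map j = B.map j) : A = B := by
  ext i l
  have := congrFun (congrFun h i) l
  exact j.injective this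

theorem map_mapj {j : F₀ →+* F} {σ : RingAut F} {σ₀ : RingAut F₀}
    (hσ : ∀ c, j (σ₀ c) = σ (j c)) (A : Matrix (Fin n) (Fin n) F₀) :
    (A.map j).map σ = (A.map σ₀).map j := by
  ext i l
  simp [hσ]

theorem map_map_aut (σ ρ : RingAut F) (A : Matrix (Fin n) (Fin n) F) :
    (A.map ρ).map σ = A.map (σ * ρ) := by
  ext i l
  rfl

theorem map_smul_aut (σ : RingAut F) (c : F) (A : Matrix (Fin n) (Fin n) F) :
    (c • A).map σ = σ c • A.map σ := by
  ext i l
  simp

theorem map_transpose_aut (σ : RingAut F) (A : Matrix (Fin n) (Fin n) F) :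
    (A.map σ)ᵀ = Aᵀ.map σ := by
  ext i l
  rfl

theorem inv_map_mul (σ : RingAut F) (k : GL (Fin n) F) :
    ((k⁻¹ : GL (Fin n) F) : Matrix (Fin n) (Fin n) F).map σ *
      (k : Matrix (Fin n) (Fin n) F).map σ = 1 := by
  rw [← map_mul_aut, Units.inv_mul, map_one_aut']

theorem map_mul_inv (σ : RingAut F) (k : GL (Fin n) F) :
    (k : Matrix (Fin n) (Fin n) F).map σ *
      ((k⁻¹ : GL (Fin n) F) : Matrix (Fin n) (Fin n) F).map σ = 1 := by
  rw [← map_mul_aut, Units.mul_inv, map_one_aut']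

theorem glmapj_coe (j : F₀ →+* F) (A : GL (Fin n) F₀) :
    ((Matrix.GeneralLinearGroup.map j A : GL (Fin n) F) : Matrix (Fin n) (Fin n) F) =
      (A : Matrix (Fin n) (Fin n) F₀).map j := rfl

/-- Restriction of a field automorphism to the fixed field of a commuting automorphism. -/
theorem exists_restrict [Finite F₀] (τ σ : RingAut F) (hcomm : ∀ c, τ (σ c) = σ (τ c))
    (j : F₀ →+* F) (hj : IsFixEmb τ j) : ∃ σ₀ : RingAut F₀, ∀ b, j (σ₀ b) = σ (j b) := by
  have hex : ∀ b : F₀, ∃ b' : F₀, j b' = σ (j b) := by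
    intro b
    apply (hj _).mp
    rw [hcomm, (hj (j b)).mpr ⟨b, rfl⟩]
  choose f hf using hex
  let φ : F₀ →+* F₀ :=
    { toFun := f
      map_one' := j.injective (by rw [hf]; simp)
      map_mul' := fun a b => j.injective (by rw [hf, map_mul, map_mul, map_mul, hf, hf])
      map_zero' := j.injective (by rw [hf]; simp)
      map_add' := fun a b => j.injective (by rw [hf, map_add, map_add, map_add, hf, hf]) }
  have hinj : Function.Injective φ := φ.injective
  have hbij : Function.Bijective φ := ⟨hinj, Finite.injective_iff_surjective.mp hinj⟩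
  refine ⟨RingEquiv.ofBijective φ hbij, fun b => ?_⟩
  exact hf b

/-! ### The relation -/

/-- The correspondence between automorphisms of `PSU_n(q)` and of `PSL_n(F₀)`. -/
def Rel (j : F₀ →+* F) (k : GL (Fin n) F) (a : MulAut (Cfsg.PSU n F q))
    (a₀ : MulAut (Matrix.ProjectiveSpecialLinearGroup (Fin n) F₀)) : Prop :=
  ∃ (A : GL (Fin n) F₀) (σ : RingAut F) (σ₀ : RingAut F₀) (x : ↥(PSUAut.GUs n F q)),
    (∀ c, j (σ₀ c) = σ (j c)) ∧
    ((x : GL (Fin n) F) : Matrix (Fin n) (Fin n) F) =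
      (k : Matrix (Fin n) (Fin n) F) * (A : Matrix (Fin n) (Fin n) F₀).map j *
        ((k⁻¹ : GL (Fin n) F) : Matrix (Fin n) (Fin n) F).map σ ∧
    a = PSUAut.cU x * PSUAut.fU σ ∧ a₀ = cG A * fG σ₀

theorem Rel.mul {j : F₀ →+* F} {k : GL (Fin n) F} {a b : MulAut (Cfsg.PSU n F q)}
    {a₀ b₀ : MulAut (Matrix.ProjectiveSpecialLinearGroup (Fin n) F₀)}
    (h1 : Rel j k a a₀) (h2 : Rel j k b b₀) : Rel j k (a * b) (a₀ * b₀) := by
  obtain ⟨A, σ, σ₀, x, hσ, hx, rfl, rfl⟩ := h1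
  obtain ⟨B, ρ, ρ₀, y, hρ, hy, rfl, rfl⟩ := h2
  refine ⟨A * Matrix.GeneralLinearGroup.map (σ₀ : F₀ →+* F₀) B, σ * ρ, σ₀ * ρ₀,
    x * PSUAut.mapU σ y, ?_, ?_, ?_, ?_⟩
  · intro c
    show j (σ₀ (ρ₀ c)) = σ (ρ (j c))
    rw [hσ, hρ]
  · rw [Subgroup.coe_mul, Units.val_mul, PSUAut.mapU_coe, hx, hy, Units.val_mul, glmap_coe,
      map_mul_aut, map_mul_aut, map_mapj hσ, map_map_aut, mapj_mul]
    simp only [Matrix.mul_assoc]
    congr 2
    rw [← Matrix.mul_assoc, inv_map_mul, Matrix.one_mul]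
  · have e := PSUAut.fU_cU (n := n) (q := q) σ y
    calc (PSUAut.cU x * PSUAut.fU σ * (PSUAut.cU y * PSUAut.fU ρ) : MulAut (Cfsg.PSU n F q))
        = PSUAut.cU x * (PSUAut.fU σ * PSUAut.cU y) * PSUAut.fU ρ := by
          simp only [mul_assoc]
      _ = _ := by
          rw [e, map_mul, map_mul]
          simp only [mul_assoc]
  · have e := fG_cG σ₀ B
    calc (cG A * fG σ₀ * (cG B * fG ρ₀) :
          MulAut (Matrix.ProjectiveSpecialLinearGroup (Fin n) F₀))
        = cG A * (fG σ₀ * cG B) * fG ρ₀ := by simp only [mul_assoc]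
      _ = _ := by
          rw [e, map_mul, map_mul]
          simp only [mul_assoc]

theorem Rel.one (j : F₀ →+* F) (k : GL (Fin n) F) :
    Rel (q := q) j k (1 : MulAut (Cfsg.PSU n F q)) 1 := by
  refine ⟨1, 1, 1, 1, fun c => rfl, ?_, ?_, ?_⟩
  · rw [Subgroup.coe_one, Units.val_one, Units.val_one, mapj_one, Matrix.mul_one, map_one_aut,
      Units.mul_inv]
  · rw [map_one, map_one, one_mul]
  · rw [map_one, map_one, one_mul]

theorem Rel.pow {j : F₀ →+* F} {k : GL (Fin n) F} {a : MulAut (Cfsg.PSU n F q)}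
    {a₀ : MulAut (Matrix.ProjectiveSpecialLinearGroup (Fin n) F₀)}
    (h : Rel j k a a₀) (m : ℕ) : Rel j k (a ^ m) (a₀ ^ m) := by
  induction m with
  | zero =>
    rw [pow_zero, pow_zero]
    exact Rel.one j k
  | succ m ih =>
    rw [pow_succ, pow_succ]
    exact ih.mul h

end Cfsg.Agent.Lib.Helper43.PSUBal
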