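import Mathlib
import Cfsg.Agent.Lib.Helper43.PSUBal.Rel

set_option autoImplicit false

/-!
# Local balance for `PSU_n(q)`: properties of the correspondence `Rel`
-/

namespace Cfsg.Agent.Lib.Helper43.PSUBal

open Matrix Cfsg.Agent.Lib.Helper43.AutPSLn Cfsg.Agent.Lib.Helper43.FieldAut
  Cfsg.Agent.Lib.Helper43.AutSp4 Cfsg.Agent.Lib.Helper43.PSLBal Cfsg.Agent.Lib.Helper8

variable {n : ℕ} {F : Type*} [Field F] [Fintype F] {q : ℕ} {F₀ : Type*} [Field F₀]

local notation "Mx" => Matrix (Fin n) (Fin n) F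
local notation "GLn" => GL (Fin n) F

theorem finite_aut_psu : Finite (MulAut (Cfsg.PSU n F q)) := by
  haveI : Finite (Matrix.SpecialLinearGroup (Fin n) F) :=
    Finite.of_injective (fun s : Matrix.SpecialLinearGroup (Fin n) F => (s : Mx))
      Subtype.val_injective
  haveI : Finite (Cfsg.PSU n F q) :=
    Finite.of_surjective (QuotientGroup.mk' _) (QuotientGroup.mk'_surjective _)
  exact Finite.of_injective (fun e : MulAut (Cfsg.PSU n F q) =>
    (e : Cfsg.PSU n F q → Cfsg.PSU n F q)) DFunLike.coe_injective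

/-- Uniqueness of the semilinear representation of automorphisms of `PSU_n(q)`. -/
theorem cU_fU_eq_one (hF : Fintype.card F = q ^ 2) (hn : 3 ≤ n) (h32 : ¬ (n = 3 ∧ q = 2))
    (x : ↥(PSUAut.GUs n F q)) (σ : RingAut F)
    (h : (PSUAut.cU x * PSUAut.fU σ : MulAut (Cfsg.PSU n F q)) = 1) :
    σ = 1 ∧ ∃ c : Fˣ, ((x : GLn) : Mx) = (c : F) • (1 : Mx) := by
  obtain ⟨g, hg, d, hd⟩ := PSUAut.exists_GU_smul hF (by omega) x
  have e1 : (PSUAut.cU x : MulAut (Cfsg.PSU n F q)) = PSUAut.cU (PSUAut.ofGU g hg) :=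
    PSUAut.cU_eq_of_smul x _ d hd
  have h2 : (PSUAut.fU σ : MulAut (Cfsg.PSU n F q)) =
      PSUSplit.cV ((⟨g, hg⟩ : ↥(Cfsg.GU n F q))⁻¹) := by
    rw [map_inv]
    have h3 := eq_inv_of_mul_eq_one_right h
    rw [h3, e1]
    rfl
  have hσ : σ = 1 := PSUOut.eq_one_of_fU_eq hF hn h32 σ _ h2
  refine ⟨hσ, ?_⟩
  rw [hσ, map_one, mul_one] at h
  exact (PSUAut.cU_eq_one_iff hF hn h32 x).mp h

theorem cU_fU_mul (x y : ↥(PSUAut.GUs n F q)) (σ ρ : RingAut F) :
    (PSUAut.cU x * PSUAut.fU σ * (PSUAut.cU y * PSUAut.fU ρ) : MulAut (Cfsg.PSU n F q)) =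
      PSUAut.cU (x * PSUAut.mapU σ y) * PSUAut.fU (σ * ρ) := by
  have e := PSUAut.fU_cU (n := n) (q := q) σ y
  calc (PSUAut.cU x * PSUAut.fU σ * (PSUAut.cU y * PSUAut.fU ρ) : MulAut (Cfsg.PSU n F q))
      = PSUAut.cU x * (PSUAut.fU σ * PSUAut.cU y) * PSUAut.fU ρ := by
        simp only [mul_assoc]
    _ = _ := by
        rw [e, map_mul, map_mul]
        simp only [mul_assoc]

/-- The relation is functional at the identity. -/
theorem Rel.eq_one_of_left (hF : Fintype.card F = q ^ 2) (hn : 3 ≤ n) (h32 : ¬ (n = 3 ∧ q = 2))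
    {j : F₀ →+* F} {k : GLn}
    {a₀ : MulAut (Matrix.ProjectiveSpecialLinearGroup (Fin n) F₀)}
    (h : Rel (q := q) j k (1 : MulAut (Cfsg.PSU n F q)) a₀) : a₀ = 1 := by
  obtain ⟨A, σ, σ₀, x, hσ, hx, h1, rfl⟩ := h
  obtain ⟨hσ1, c, hc⟩ := cU_fU_eq_one hF hn h32 x σ h1.symm
  subst hσ1
  have hσ₀ : σ₀ = 1 := by
    ext b
    apply j.injective
    rw [hσ]
    rfl
  subst hσ₀
  rw [map_one, mul_one]
  rw [hc, map_one_aut] at hx
  have hA : (A : Matrix (Fin n) (Fin n) F₀).map j = (c : F) • (1 : Mx) := by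
    have h2 : (A : Matrix (Fin n) (Fin n) F₀).map j =
        ((k⁻¹ : GLn) : Mx) * ((k : Mx) * (A : Matrix (Fin n) (Fin n) F₀).map j *
          ((k⁻¹ : GLn) : Mx)) * (k : Mx) := by
      simp only [Matrix.mul_assoc]
      rw [Units.inv_mul, Matrix.mul_one, ← Matrix.mul_assoc, Units.inv_mul, Matrix.one_mul]
    rw [h2, ← hx, Matrix.mul_smul, Matrix.smul_mul, Matrix.mul_one, Units.inv_mul]
  obtain ⟨i₀⟩ : Nonempty (Fin n) := ⟨⟨0, by omega⟩⟩
  apply cG_of_scalar A (c := (A : Matrix (Fin n) (Fin n) F₀) i₀ i₀)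
  ext i l
  apply j.injective
  have h3 := congrFun (congrFun hA i) l
  have h4 := congrFun (congrFun hA i₀) i₀
  simp only [Matrix.map_apply, Matrix.smul_apply, smul_eq_mul] at h3 h4
  rw [h3, Matrix.smul_apply, smul_eq_mul, map_mul, h4]
  by_cases hil : i = l
  · subst hil
    simp
  · simp [Matrix.one_apply_ne hil]

/-- The relation is compatible with inverses. -/
theorem Rel.inv [Finite F₀] {j : F₀ →+* F} {k : GLn} {a : MulAut (Cfsg.PSU n F q)}
    {a₀ : MulAut (Matrix.ProjectiveSpecialLinearGroup (Fin n) F₀)}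
    (h : Rel j k a a₀) : Rel j k a⁻¹ a₀⁻¹ := by
  haveI := finite_aut_psu (n := n) (F := F) (q := q)
  haveI : Finite (MulAut (Matrix.ProjectiveSpecialLinearGroup (Fin n) F₀)) := finite_aut_psl
  obtain ⟨m, hm⟩ : ∃ m : ℕ, m = orderOf a * orderOf a₀ := ⟨_, rfl⟩
  have hmpos : 0 < m := by
    rw [hm]
    exact Nat.mul_pos (orderOf_pos a) (orderOf_pos a₀)
  have h1 : a ^ m = 1 := by rw [hm, pow_mul, pow_orderOf_eq_one, one_pow]
  have h2 : a₀ ^ m = 1 := by rw [hm, mul_comm, pow_mul, pow_orderOf_eq_one, one_pow]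
  have e1 : a ^ (m - 1) = a⁻¹ := by
    apply eq_inv_of_mul_eq_one_left
    rw [← pow_succ, Nat.sub_add_cancel hmpos, h1]
  have e2 : a₀ ^ (m - 1) = a₀⁻¹ := by
    apply eq_inv_of_mul_eq_one_left
    rw [← pow_succ, Nat.sub_add_cancel hmpos, h2]
  have h3 := h.pow (m - 1)
  rwa [e1, e2] at h3

/-- The kernel of the correspondence consists of involutions. -/
theorem Rel.sq_eq_one (hF : Fintype.card F = q ^ 2) (hn : 2 ≤ n) {j : F₀ →+* F}
    (hj : IsFixEmb (frobQ hF) j) {k : GLn} {a : MulAut (Cfsg.PSU n F q)}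
    (h : Rel j k a (1 : MulAut (Matrix.ProjectiveSpecialLinearGroup (Fin n) F₀))) :
    a ^ 2 = 1 := by
  obtain ⟨A, σ, σ₀, x, hσ, hx, rfl, h1⟩ := h
  obtain ⟨⟨c, -, hA⟩, hσ₀⟩ := cG_fG_eq_one hn A σ₀ h1.symm
  subst hσ₀
  have hfix : ∀ a : F, a ^ q = a → σ a = a := by
    intro a ha
    have h2 : frobQ hF a = a := by rw [frobQ_apply]; exact ha
    obtain ⟨b, rfl⟩ := (hj a).mp h2
    rw [← hσ]
    rfl
  have hσσ : σ * σ = 1 := PSUAut.sq_eq_one_of_fix hF σ hfix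
  rw [PSUAut.sq_cU_fU, hσσ, map_one, mul_one]
  apply PSUAut.cU_of_scalar _ (j c * j c)
  have hAj : (A : Matrix (Fin n) (Fin n) F₀).map j = j c • (1 : Mx) := by
    rw [hA, mapj_smul, mapj_one]
  rw [Subgroup.coe_mul, Units.val_mul, PSUAut.mapU_coe, hx, map_mul_aut, map_mul_aut,
    map_map_aut, hσσ, map_one_aut, hAj, map_smul_aut, map_one_aut']
  have hjc : σ (j c) = j c := by
    rw [← hσ]
    rfl
  rw [hjc]
  simp only [Matrix.mul_smul, Matrix.smul_mul, Matrix.mul_one, Matrix.mul_assoc]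
  rw [← Matrix.mul_assoc (((k⁻¹ : GLn) : Mx).map σ), inv_map_mul, Matrix.one_mul, Units.mul_inv,
    smul_smul]

end Cfsg.Agent.Lib.Helper43.PSUBal
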