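import Mathlib
import Cfsg.Agent.Lib.Helper43.PSUBal.Rel2

set_option autoImplicit false

/-!
# Local balance for `PSU_n(q)`: the domain of the correspondence

Every automorphism commuting with the graph-type involution `c_g ∘ φ_q` is related to an
automorphism of `PSL_n(F₀)`.
-/

namespace Cfsg.Agent.Lib.Helper43.PSUBal

open Matrix Cfsg.Agent.Lib.Helper43.AutPSLn Cfsg.Agent.Lib.Helper43.FieldAut
  Cfsg.Agent.Lib.Helper43.AutSp4 Cfsg.Agent.Lib.Helper43.PSLBal Cfsg.Agent.Lib.Helper8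
  Cfsg.Agent.Lib.Helper8.PSUGraph

variable {n : ℕ} {F : Type*} [Field F] [Fintype F] {q : ℕ} {F₀ : Type*} [Field F₀]

local notation "Mx" => Matrix (Fin n) (Fin n) F
local notation "GLn" => GL (Fin n) F

theorem scalar_mem_GUs (c : Fˣ) :
    Matrix.GeneralLinearGroup.scalar (Fin n) c ∈ PSUAut.GUs n F q := by
  refine ⟨c * c ^ q, fun u v => ?_⟩
  have h1 : ((Matrix.GeneralLinearGroup.scalar (Fin n) c : GLn) : Mx) = (c : F) • (1 : Mx) := by
    rw [Matrix.GeneralLinearGroup.coe_scalar, Matrix.scalar_apply, Matrix.smul_one_eq_diagonal]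
  rw [h1, Matrix.smul_mulVec, Matrix.smul_mulVec, Matrix.one_mulVec, Matrix.one_mulVec]
  unfold Cfsg.hermForm
  rw [Units.val_mul, Units.val_pow_eq_pow_val, Finset.mul_sum]
  refine Finset.sum_congr rfl fun i _ => ?_
  simp only [Pi.smul_apply, smul_eq_mul]
  ring

theorem frob_comm (hF : Fintype.card F = q ^ 2) (σ : RingAut F) (c : F) :
    frobQ hF (σ c) = σ (frobQ hF c) := by
  rw [frobQ_apply, frobQ_apply, map_pow]

theorem frob_mul_comm (hF : Fintype.card F = q ^ 2) (σ : RingAut F) :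
    σ * frobQ hF = frobQ hF * σ := by
  ext c
  exact (frob_comm hF σ c).symm

theorem sg_glmap (hF : Fintype.card F = q ^ 2) (σ : RingAut F) (k : GLn) :
    sg hF (Matrix.GeneralLinearGroup.map (σ : F →+* F) k) =
      Matrix.GeneralLinearGroup.map (σ : F →+* F) (sg hF k) := by
  apply Units.ext
  rw [sg_coe, glmap_coe, glmap_coe, sg_coe]
  ext i l
  exact frob_comm hF σ _

/-- Every automorphism `c_x ∘ φ_σ` commuting with `c_g ∘ φ_q` is in the domain of the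
correspondence. -/
theorem Rel.exists_of_comm [Finite F₀] (hF : Fintype.card F = q ^ 2) (hn : 3 ≤ n)
    (h32 : ¬ (n = 3 ∧ q = 2)) (j : F₀ →+* F) (hj : IsFixEmb (frobQ hF) j)
    (g k : GLn) (hg : g ∈ Cfsg.GU n F q) (hk : pr (g * sg hF k) = pr k)
    (x : ↥(PSUAut.GUs n F q)) (σ : RingAut F)
    (hcomm : (PSUAut.cU x * PSUAut.fU σ : MulAut (Cfsg.PSU n F q)) *
        (PSUAut.cU (PSUAut.ofGU g hg) * PSUAut.fU (frobQ hF)) =
      (PSUAut.cU (PSUAut.ofGU g hg) * PSUAut.fU (frobQ hF)) * (PSUAut.cU x * PSUAut.fU σ)) :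
    ∃ a₀ : MulAut (Matrix.ProjectiveSpecialLinearGroup (Fin n) F₀),
      Rel j k (PSUAut.cU x * PSUAut.fU σ : MulAut (Cfsg.PSU n F q)) a₀ := by
  rw [cU_fU_mul, cU_fU_mul, frob_mul_comm hF σ, mul_left_inj] at hcomm
  obtain ⟨c, hc⟩ := (PSUAut.cU_eq_iff hF hn h32 _ _).mp hcomm
  rw [Subgroup.coe_mul, Subgroup.coe_mul, Units.val_mul, Units.val_mul, PSUAut.mapU_coe,
    PSUAut.mapU_coe] at hc
  obtain ⟨gσ, hgσ⟩ : ∃ gσ : GLn, gσ = Matrix.GeneralLinearGroup.map (σ : F →+* F) g := ⟨_, rfl⟩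
  obtain ⟨kσ, hkσ⟩ : ∃ kσ : GLn, kσ = Matrix.GeneralLinearGroup.map (σ : F →+* F) k := ⟨_, rfl⟩
  have hX : pr (x : GLn) * pr gσ = pr g * pr (sg hF (x : GLn)) := by
    rw [← map_mul, ← map_mul, pr_eq_iff]
    refine ⟨c, ?_⟩
    rw [Units.val_mul, Units.val_mul, hgσ, glmap_coe, sg_coe]
    exact hc
  have hK : pr g * pr (sg hF k) = pr k := by rw [← map_mul]; exact hk
  have hKσ : pr gσ * pr (sg hF kσ) = pr kσ := by
    have h1 := pr_map ((σ : RingAut F) : F →+* F) _ _ hk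
    rw [map_mul (Matrix.GeneralLinearGroup.map ((σ : RingAut F) : F →+* F)), map_mul,
      ← sg_glmap, ← hgσ, ← hkσ] at h1
    exact h1
  have hA' : pr (k⁻¹ * (x : GLn) * kσ) = pr (sg hF (k⁻¹ * (x : GLn) * kσ)) := by
    rw [map_mul (sg hF), map_mul (sg hF), map_inv (sg hF)]
    simp only [map_mul, map_inv]
    rw [← hK, ← hKσ]
    have h2 : pr (sg hF (x : GLn)) = (pr g)⁻¹ * (pr (x : GLn) * pr gσ) := by
      rw [hX, inv_mul_cancel_left]
    rw [h2]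
    group
  obtain ⟨A, hA⟩ := descent hF (by omega) j hj _ hA'
  obtain ⟨e, he⟩ := (pr_eq_iff _ _).mp hA
  rw [Units.val_mul, Units.val_mul, glmapj_coe] at he
  obtain ⟨σ₀, hσ₀⟩ := exists_restrict (frobQ hF) σ (frob_comm hF σ) j hj
  obtain ⟨x', hx'⟩ : ∃ x' : ↥(PSUAut.GUs n F q),
      (x' : GLn) = Matrix.GeneralLinearGroup.scalar (Fin n) e⁻¹ * (x : GLn) :=
    ⟨⟨_, Subgroup.mul_mem _ (scalar_mem_GUs e⁻¹) x.2⟩, rfl⟩
  have hx'c : ((x' : GLn) : Mx) = ((e⁻¹ : Fˣ) : F) • ((x : GLn) : Mx) := by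
    rw [hx', PSUAut.scalar_mul_coe']
  have hxk : ((x : GLn) : Mx) = (e : F) • ((k : Mx) * (A : Matrix (Fin n) (Fin n) F₀).map j *
      ((k⁻¹ : GLn) : Mx).map σ) := by
    have h3 : ((x : GLn) : Mx) = (k : Mx) * (((k⁻¹ : GLn) : Mx) * ((x : GLn) : Mx) * (kσ : Mx)) *
        ((k⁻¹ : GLn) : Mx).map σ := by
      rw [hkσ, glmap_coe]
      simp only [Matrix.mul_assoc]
      rw [map_mul_inv, Matrix.mul_one, ← Matrix.mul_assoc, Units.mul_inv, Matrix.one_mul]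
    rw [h3, he, Matrix.mul_smul, Matrix.smul_mul]
  refine ⟨cG A * fG σ₀, A, σ, σ₀, x', hσ₀, ?_, ?_, rfl⟩
  · rw [hx'c, hxk, smul_smul, Units.val_inv_eq_inv_val, inv_mul_cancel₀ e.ne_zero, one_smul]
  · rw [PSUAut.cU_eq_of_smul x' x _ hx'c]

end Cfsg.Agent.Lib.Helper43.PSUBal
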