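import Mathlib
import Cfsg.Agent.Lib.Helper43.PSUBal.Dom

set_option autoImplicit false

/-!
# Local balance for `PSU_n(q)`: graph-type involutions

The centralizer of a graph-type involution `c_g ∘ φ_q` of `PSU_n(q)` (`q` odd, `n ≥ 3`) in an
almost simple group has no non-trivial normal subgroup of odd order.  The odd-order normal
subgroup is transported to a group of automorphisms of `PSL_n(F₀)` satisfying `GData`.
-/

namespace Cfsg.Agent.Lib.Helper43.PSUBal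

open Matrix Cfsg.Agent.Lib.Helper43.AutPSLn Cfsg.Agent.Lib.Helper43.FieldAut
  Cfsg.Agent.Lib.Helper43.AutSp4 Cfsg.Agent.Lib.Helper43.PSLBal Cfsg.Agent.Lib.Helper8
  Cfsg.Agent.Lib.Helper8.PSUGraph

variable {n : ℕ} {F : Type*} [Field F] [Fintype F] {q : ℕ} {F₀ : Type*} [Field F₀]

local notation "Mx" => Matrix (Fin n) (Fin n) F
local notation "Mx₀" => Matrix (Fin n) (Fin n) F₀
local notation "GLn" => GL (Fin n) F

/-- The image of a subgroup under the correspondence. -/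
def relImage [Finite F₀] (j : F₀ →+* F) (k : GL (Fin n) F)
    (M : Subgroup (MulAut (Cfsg.PSU n F q))) :
    Subgroup (MulAut (Matrix.ProjectiveSpecialLinearGroup (Fin n) F₀)) where
  carrier := {a₀ | ∃ a ∈ M, Rel j k a a₀}
  mul_mem' := by
    rintro _ _ ⟨a, ha, h1⟩ ⟨b, hb, h2⟩
    exact ⟨a * b, M.mul_mem ha hb, h1.mul h2⟩
  one_mem' := ⟨1, M.one_mem, Rel.one j k⟩
  inv_mem' := by
    rintro _ ⟨a, ha, h1⟩
    exact ⟨a⁻¹, M.inv_mem ha, h1.inv⟩

theorem mem_relImage [Finite F₀] (j : F₀ →+* F) (k : GL (Fin n) F)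
    (M : Subgroup (MulAut (Cfsg.PSU n F q)))
    (a₀ : MulAut (Matrix.ProjectiveSpecialLinearGroup (Fin n) F₀)) :
    a₀ ∈ relImage j k M ↔ ∃ a ∈ M, Rel j k a a₀ := Iff.rfl

theorem map_fix (hF : Fintype.card F = q ^ 2) (j : F₀ →+* F) (hj : IsFixEmb (frobQ hF) j)
    (A : Mx₀) : (A.map j).map (frobQ hF) = A.map j := by
  ext i l
  exact (hj _).mpr ⟨A i l, rfl⟩

theorem exists_smul_of_mapj (j : F₀ →+* F) {X Y : Mx₀} {c : F} (hc : c ≠ 0) (hY : Y ≠ 0)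
    (h : X.map j = c • Y.map j) : ∃ ν : F₀, ν ≠ 0 ∧ X = ν • Y := by
  obtain ⟨i, l, hil⟩ : ∃ i l, Y i l ≠ 0 := by
    by_contra hcon
    push Not at hcon
    apply hY
    ext i l
    exact hcon i l
  have h1 := congrFun (congrFun h i) l
  simp only [Matrix.map_apply, Matrix.smul_apply, smul_eq_mul] at h1
  have hjY : j (Y i l) ≠ 0 := (map_ne_zero j).mpr hil
  have hν : j (X i l / Y i l) = c := by
    rw [map_div₀, h1, mul_div_assoc, div_self hjY, mul_one]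
  refine ⟨X i l / Y i l, ?_, ?_⟩
  · intro h0
    rw [h0, map_zero] at hν
    exact hc hν.symm
  · apply mapj_injective j
    rw [mapj_smul, hν, h]

/-- The transported groups satisfy `GData`. -/
theorem gdata_psu [Fintype F₀] (hF : Fintype.card F = q ^ 2) (hn : 3 ≤ n)
    (h32 : ¬ (n = 3 ∧ q = 2)) (j : F₀ →+* F) (hj : IsFixEmb (frobQ hF) j)
    (g k : GLn) (hg : g ∈ Cfsg.GU n F q) (G : Mx₀) (hG0 : G ≠ 0) (c₁ c₂ : F) (hc₁ : c₁ ≠ 0)
    (hc₂ : c₂ ≠ 0)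
    (hT1 : (g : Mx) * (k : Mx).map (frobQ hF) = c₁ • (k : Mx))
    (hT2 : (k : Mx)ᵀ * (k : Mx).map (frobQ hF) = c₂ • G.map j)
    (𝒢 : Subgroup (MulAut (Cfsg.PSU n F q)))
    (hinn : ∀ t : Cfsg.PSU n F q, MulAut.conj t ∈ 𝒢)
    (M : Subgroup (MulAut (Cfsg.PSU n F q)))
    (hMD : M ≤ 𝒢 ⊓ Subgroup.centralizer
      {(PSUAut.cU (PSUAut.ofGU g hg) * PSUAut.fU (frobQ hF) : MulAut (Cfsg.PSU n F q))})
    (hnorm : ∀ d ∈ 𝒢 ⊓ Subgroup.centralizer
      {(PSUAut.cU (PSUAut.ofGU g hg) * PSUAut.fU (frobQ hF) : MulAut (Cfsg.PSU n F q))},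
      ∀ a ∈ M, d * a * d⁻¹ ∈ M)
    (hc : (Nat.card M).Coprime 2) :
    GData G (1 : RingAut F₀)
      (relImage j k (𝒢 ⊓ Subgroup.centralizer
        {(PSUAut.cU (PSUAut.ofGU g hg) * PSUAut.fU (frobQ hF) : MulAut (Cfsg.PSU n F q))}))
      (relImage j k M) := by
  haveI := finite_aut_psu (n := n) (F := F) (q := q)
  haveI : Finite (MulAut (Matrix.ProjectiveSpecialLinearGroup (Fin n) F₀)) := finite_aut_psl
  obtain ⟨τ, hτ⟩ : ∃ τ : RingAut F, τ = frobQ hF := ⟨_, rfl⟩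
  rw [← hτ] at hT1 hT2
  have hfixj : ∀ A : Mx₀, (A.map j).map τ = A.map j := fun A => by
    rw [hτ]
    exact map_fix hF j hj A
  -- consequences of the data
  have hT1' : ((k⁻¹ : GLn) : Mx).map τ * ((g⁻¹ : GLn) : Mx) = c₁⁻¹ • ((k⁻¹ : GLn) : Mx) := by
    have e1 : ((k⁻¹ : GLn) : Mx).map τ * ((g⁻¹ : GLn) : Mx) * (c₁ • (k : Mx)) = 1 := by
      rw [← hT1]
      simp only [Matrix.mul_assoc]
      rw [← Matrix.mul_assoc ((g⁻¹ : GLn) : Mx), Units.inv_mul, Matrix.one_mul, inv_map_mul]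
    have e2 : (c₁ • (k : Mx)) * (c₁⁻¹ • ((k⁻¹ : GLn) : Mx)) = 1 := by
      rw [Matrix.smul_mul, Matrix.mul_smul, Units.mul_inv, smul_smul, mul_inv_cancel₀ hc₁,
        one_smul]
    calc ((k⁻¹ : GLn) : Mx).map τ * ((g⁻¹ : GLn) : Mx)
        = ((k⁻¹ : GLn) : Mx).map τ * ((g⁻¹ : GLn) : Mx) *
            ((c₁ • (k : Mx)) * (c₁⁻¹ • ((k⁻¹ : GLn) : Mx))) := by rw [e2, Matrix.mul_one]
      _ = c₁⁻¹ • ((k⁻¹ : GLn) : Mx) := by rw [← Matrix.mul_assoc, e1, Matrix.one_mul]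
  have hT2' : ((k⁻¹ : GLn) : Mx)ᵀ * (c₂ • G.map j) * ((k⁻¹ : GLn) : Mx).map τ = 1 := by
    rw [← hT2]
    simp only [Matrix.mul_assoc]
    rw [map_mul_inv, Matrix.mul_one, ← Matrix.transpose_mul, Units.mul_inv, Matrix.transpose_one]
  refine
    { le := ?_
      norm := ?_
      odd := ?_
      iso := ?_
      form := ?_
      semi := ?_ }
  · rintro _ ⟨a, ha, h⟩
    exact ⟨a, hMD ha, h⟩
  · rintro d₀ ⟨d, hd, hrd⟩ a₀ ⟨a, ha, hra⟩
    exact ⟨d * a * d⁻¹, hnorm d hd a ha, (hrd.mul hra).mul hrd.inv⟩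
  · rw [Nat.coprime_comm, Nat.Prime.coprime_iff_not_dvd Nat.prime_two]
    intro hdvd
    haveI : Fact (Nat.Prime 2) := ⟨Nat.prime_two⟩
    obtain ⟨y, hy⟩ := exists_prime_orderOf_dvd_card' (G := ↥(relImage j k M)) 2 hdvd
    obtain ⟨a, ha, hrel⟩ := y.2
    have h1 : a ^ Nat.card M = 1 := by
      have h3 : (⟨a, ha⟩ : M) ^ Nat.card M = 1 := pow_card_eq_one'
      have h4 := congrArg Subtype.val h3
      rwa [Subgroup.coe_pow, Subgroup.coe_one] at h4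
    have h2 := hrel.pow (Nat.card M)
    rw [h1] at h2
    have h3 : (y : MulAut (Matrix.ProjectiveSpecialLinearGroup (Fin n) F₀)) ^ Nat.card M = 1 :=
      Rel.eq_one_of_left hF hn h32 h2
    have h4 : orderOf (y : MulAut (Matrix.ProjectiveSpecialLinearGroup (Fin n) F₀)) ∣
        Nat.card M := orderOf_dvd_of_pow_eq_one h3
    rw [Subgroup.orderOf_coe, hy] at h4
    have h5 : (2 : ℕ) ∣ 1 := by
      rw [← Nat.Coprime.gcd_eq_one hc]
      exact Nat.dvd_gcd h4 dvd_rfl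
    omega
  · intro s hs
    rw [map_one_aut] at hs
    obtain ⟨X, hX⟩ : ∃ X : GLn, X = k * Matrix.GeneralLinearGroup.map j
        (Matrix.SpecialLinearGroup.toGL s) * k⁻¹ := ⟨_, rfl⟩
    have hXc : (X : Mx) = (k : Mx) * (s : Mx₀).map j * ((k⁻¹ : GLn) : Mx) := by
      rw [hX, Units.val_mul, Units.val_mul, glmapj_coe]
      rfl
    have hXτ : (X : Mx).map τ = (k : Mx).map τ * (s : Mx₀).map j * ((k⁻¹ : GLn) : Mx).map τ := by
      rw [hXc, map_mul_aut, map_mul_aut, hfixj]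
    have hXU : X ∈ Cfsg.GU n F q := by
      rw [PSUAut.mem_GU_iff hF, ← hτ, hXτ, hXc, Matrix.transpose_mul, Matrix.transpose_mul]
      have e1 : ((s : Mx₀).map j)ᵀ * ((k : Mx)ᵀ * (k : Mx).map τ) * (s : Mx₀).map j =
          c₂ • G.map j := by
        rw [hT2, Matrix.mul_smul, Matrix.smul_mul, mapj_transpose, ← mapj_mul, ← mapj_mul, hs]
      calc ((k⁻¹ : GLn) : Mx)ᵀ * (((s : Mx₀).map j)ᵀ * (k : Mx)ᵀ) *
            ((k : Mx).map τ * (s : Mx₀).map j * ((k⁻¹ : GLn) : Mx).map τ)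
          = ((k⁻¹ : GLn) : Mx)ᵀ * (((s : Mx₀).map j)ᵀ * ((k : Mx)ᵀ * (k : Mx).map τ) *
              (s : Mx₀).map j) * ((k⁻¹ : GLn) : Mx).map τ := by
            simp only [Matrix.mul_assoc]
        _ = 1 := by rw [e1, hT2']
    have hdet : (X : Mx).det = 1 := by
      rw [hXc, Matrix.det_units_conj]
      have h1 := RingHom.map_det j (s : Mx₀)
      rw [s.2, map_one] at h1
      exact h1.symm
    obtain ⟨S, hS⟩ : ∃ S : Matrix.SpecialLinearGroup (Fin n) F, (S : Mx) = (X : Mx) :=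
      ⟨⟨_, hdet⟩, rfl⟩
    have hSU : S ∈ Cfsg.SU n F q := by
      intro u v
      show Cfsg.hermForm n F q ((S : Mx) *ᵥ u) ((S : Mx) *ᵥ v) = Cfsg.hermForm n F q u v
      rw [hS]
      exact hXU u v
    obtain ⟨s', hs'⟩ : ∃ s' : ↥(Cfsg.SU n F q), s' = ⟨S, hSU⟩ := ⟨_, rfl⟩
    have hs'c : ((s' : Matrix.SpecialLinearGroup (Fin n) F) : Mx) = (X : Mx) := by
      rw [hs']
      exact hS
    have hfixβ : (PSUAut.cU (PSUAut.ofGU g hg) * PSUAut.fU (frobQ hF) :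
        MulAut (Cfsg.PSU n F q)) (QuotientGroup.mk s') = QuotientGroup.mk s' := by
      rw [MulAut.mul_apply, PSUAut.fU_mk, PSUAut.cU_mk]
      congr 1
      apply Subtype.ext
      apply Subtype.ext
      rw [PSUAut.uAut_coe, glAut_coe, PSUAut.fAutU_coe, fAutN_coe, hs'c, ← hτ, hXτ, hXc]
      show (g : Mx) * ((k : Mx).map τ * (s : Mx₀).map j * ((k⁻¹ : GLn) : Mx).map τ) *
        ((g⁻¹ : GLn) : Mx) = _
      calc (g : Mx) * ((k : Mx).map τ * (s : Mx₀).map j * ((k⁻¹ : GLn) : Mx).map τ) *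
            ((g⁻¹ : GLn) : Mx)
          = ((g : Mx) * (k : Mx).map τ) * (s : Mx₀).map j *
              (((k⁻¹ : GLn) : Mx).map τ * ((g⁻¹ : GLn) : Mx)) := by
            simp only [Matrix.mul_assoc]
        _ = _ := by
            rw [hT1, hT1', Matrix.smul_mul, Matrix.smul_mul, Matrix.mul_smul, smul_smul,
              mul_inv_cancel₀ hc₁, one_smul]
    refine ⟨MulAut.conj (QuotientGroup.mk s' : Cfsg.PSU n F q), ⟨hinn _, ?_⟩, ?_⟩
    · show MulAut.conj (QuotientGroup.mk s' : Cfsg.PSU n F q) ∈ Subgroup.centralizer _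
      rw [Subgroup.mem_centralizer_iff]
      intro z hz
      rw [Set.mem_singleton_iff] at hz
      subst hz
      have h1 := conj_aut (PSUAut.cU (PSUAut.ofGU g hg) * PSUAut.fU (frobQ hF) :
        MulAut (Cfsg.PSU n F q)) (QuotientGroup.mk s')
      rw [hfixβ, mul_inv_eq_iff_eq_mul] at h1
      exact h1
    · refine ⟨Matrix.SpecialLinearGroup.toGL s, 1, 1, PSUAut.ofGU X hXU, fun c => rfl, ?_, ?_, ?_⟩
      · rw [map_one_aut]
        exact hXc
      · rw [map_one, mul_one, ← PSUSplit.cV_suGU, PSUSplit.cV_apply]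
        congr 1
        apply Subtype.ext
        apply Units.ext
        exact hs'c
      · rw [map_one, mul_one, cG_toGL]
  · rintro _ ⟨a, ha, A, σ, σ₀, x, -, -, -, rfl⟩
    exact ⟨A, σ₀, rfl⟩
  · intro h σ₀' hmem
    obtain ⟨a, ha, A, σ, σ₀, x, hσ, hx, -, e⟩ := hmem
    obtain ⟨hσσ, c, hc0, hcA⟩ := cG_fG_unique (by omega : 2 ≤ n) e
    rw [hσσ]
    obtain ⟨ε, hε⟩ := (PSUAut.mem_GUs_iff hF (x : GLn)).mp x.2
    rw [← hτ, hx] at hε
    have hcommτ : ∀ Y : Mx, (Y.map σ).map τ = (Y.map τ).map σ := by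
      intro Y
      ext i l
      rw [hτ]
      exact frob_comm hF σ _
    have e1 : ((k : Mx) * (A : Mx₀).map j * ((k⁻¹ : GLn) : Mx).map σ).map τ =
        (k : Mx).map τ * (A : Mx₀).map j * (((k⁻¹ : GLn) : Mx).map σ).map τ := by
      rw [map_mul_aut, map_mul_aut, hfixj]
    rw [e1, Matrix.transpose_mul, Matrix.transpose_mul] at hε
    have e2 : (A : Mx₀)ᵀ.map j * ((k : Mx)ᵀ * (k : Mx).map τ) * (A : Mx₀).map j =
        c₂ • ((A : Mx₀)ᵀ * G * (A : Mx₀)).map j := by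
      rw [hT2, Matrix.mul_smul, Matrix.smul_mul, ← mapj_mul, ← mapj_mul]
    have e3 : ((k : Mx).map σ)ᵀ * ((((k⁻¹ : GLn) : Mx).map σ)ᵀ *
          (((A : Mx₀).map j)ᵀ * (k : Mx)ᵀ) *
          ((k : Mx).map τ * (A : Mx₀).map j * (((k⁻¹ : GLn) : Mx).map σ).map τ)) *
          ((k : Mx).map σ).map τ = c₂ • ((A : Mx₀)ᵀ * G * (A : Mx₀)).map j := by
      have e4 : ((k : Mx).map σ)ᵀ * (((k⁻¹ : GLn) : Mx).map σ)ᵀ = 1 := by
        rw [← Matrix.transpose_mul, inv_map_mul, Matrix.transpose_one]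
      have e5 : (((k⁻¹ : GLn) : Mx).map σ).map τ * ((k : Mx).map σ).map τ = 1 := by
        rw [← map_mul_aut, inv_map_mul, map_one_aut']
      calc ((k : Mx).map σ)ᵀ * ((((k⁻¹ : GLn) : Mx).map σ)ᵀ *
            (((A : Mx₀).map j)ᵀ * (k : Mx)ᵀ) *
            ((k : Mx).map τ * (A : Mx₀).map j * (((k⁻¹ : GLn) : Mx).map σ).map τ)) *
            ((k : Mx).map σ).map τ
          = (((k : Mx).map σ)ᵀ * (((k⁻¹ : GLn) : Mx).map σ)ᵀ) *
              ((A : Mx₀)ᵀ.map j * ((k : Mx)ᵀ * (k : Mx).map τ) * (A : Mx₀).map j) *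
              ((((k⁻¹ : GLn) : Mx).map σ).map τ * ((k : Mx).map σ).map τ) := by
            rw [mapj_transpose]
            simp only [Matrix.mul_assoc]
        _ = _ := by rw [e4, e5, Matrix.one_mul, Matrix.mul_one, e2]
    rw [hε] at e3
    have e6 : ((k : Mx).map σ)ᵀ * ((ε : F) • (1 : Mx)) * ((k : Mx).map σ).map τ =
        ((ε : F) * σ c₂) • (G.map σ₀).map j := by
      rw [Matrix.mul_smul, Matrix.smul_mul, Matrix.mul_one, hcommτ, map_transpose_aut,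
        ← map_mul_aut, hT2, map_smul_aut, map_mapj hσ, smul_smul]
    rw [e6] at e3
    have e7 : ((A : Mx₀)ᵀ * G * (A : Mx₀)).map j = (c₂⁻¹ * ((ε : F) * σ c₂)) • (G.map σ₀).map j := by
      rw [← smul_smul, e3, smul_smul, inv_mul_cancel₀ hc₂, one_smul]
    have hσc : σ c₂ ≠ 0 := (map_ne_zero σ).mpr hc₂
    have hGσ : G.map σ₀ ≠ 0 := by
      intro h0
      apply hG0
      ext i l
      have := congrFun (congrFun h0 i) l
      simpa using this
    obtain ⟨ν, hν, hνe⟩ := exists_smul_of_mapj j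
      (mul_ne_zero (inv_ne_zero hc₂) (mul_ne_zero ε.ne_zero hσc)) hGσ e7
    refine ⟨c * c * ν, mul_ne_zero (mul_ne_zero hc0 hc0) hν, ?_⟩
    rw [map_one_aut, hcA, Matrix.transpose_smul, Matrix.smul_mul, Matrix.smul_mul, Matrix.mul_smul,
      hνe, smul_smul, smul_smul]

end Cfsg.Agent.Lib.Helper43.PSUBal
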