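import Mathlib
import Cfsg.Agent.Lib.Helper43.PSUBal.GraphU

set_option autoImplicit false

/-!
# Local balance for `PSU_n(q)`: graph-type involutions, main statement
-/

namespace Cfsg.Agent.Lib.Helper43.PSUBal

open Matrix Cfsg.Agent.Lib.Helper43.AutPSLn Cfsg.Agent.Lib.Helper43.FieldAut
  Cfsg.Agent.Lib.Helper43.AutSp4 Cfsg.Agent.Lib.Helper43.PSLBal Cfsg.Agent.Lib.Helper8
  Cfsg.Agent.Lib.Helper8.PSUGraph

theorem no_core_of_trivial' {H : Type*} [Group H] {p : ℕ} {D : Subgroup H}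
    (h : ∀ M : Subgroup H, M ≤ D → (∀ d ∈ D, ∀ a ∈ M, d * a * d⁻¹ ∈ M) →
      (Nat.card M).Coprime p → ∀ a ∈ M, a = 1) : ¬ HasCore p D := by
  rintro ⟨M, hMD, hnorm, hc, hne⟩
  apply hne
  rw [eq_bot_iff]
  intro a ha
  rw [Subgroup.mem_bot]
  exact h M hMD hnorm hc a ha

theorem two_ne_zero_of_char {K : Type*} [Field K] (r : ℕ) [Fact r.Prime] [CharP K r]
    (hr2 : r ≠ 2) : (2 : K) ≠ 0 := by
  intro h0
  have h1 : ((2 : ℕ) : K) = 0 := by exact_mod_cast h0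
  rw [CharP.cast_eq_zero_iff K r] at h1
  have h3 := Nat.le_of_dvd (by norm_num) h1
  have h4 := (Fact.out : r.Prime).two_le
  omega

variable {n : ℕ} {F : Type*} [Field F] [Fintype F] {q : ℕ}

local notation "Mx" => Matrix (Fin n) (Fin n) F
local notation "GLn" => GL (Fin n) F

/-- The centralizer of a graph-type involution of `PSU_n(q)`, `q` odd, `n ≥ 3`, in an almost
simple group has no non-trivial normal subgroup of odd order. -/
theorem graph_no_core_psu (hF : Fintype.card F = q ^ 2) (hn : 3 ≤ n) (h32 : ¬ (n = 3 ∧ q = 2))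
    (r : ℕ) [Fact r.Prime] [CharP F r] (hr2 : r ≠ 2)
    (hAut : ∀ β : MulAut (Cfsg.PSU n F q), ∃ (δ φ : MulAut (Cfsg.PSU n F q)) (σ : F ≃+* F),
      Cfsg.IsInnerDiagonalAutPSU δ ∧ Cfsg.IsFieldAutPSUOf σ φ ∧ β = δ * φ)
    (𝒢 : Subgroup (MulAut (Cfsg.PSU n F q))) (hinn : ∀ t : Cfsg.PSU n F q, MulAut.conj t ∈ 𝒢)
    (g : GLn) (hg : g ∈ Cfsg.GU n F q)
    (hsq : (PSUAut.cU (PSUAut.ofGU g hg) * PSUAut.fU (frobQ hF) :
      MulAut (Cfsg.PSU n F q)) ^ 2 = 1) :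
    ¬ HasCore 2 (𝒢 ⊓ Subgroup.centralizer
      {(PSUAut.cU (PSUAut.ofGU g hg) * PSUAut.fU (frobQ hF) : MulAut (Cfsg.PSU n F q))}) := by
  classical
  have hrodd : Odd r := (Fact.out : r.Prime).odd_of_ne_two hr2
  have hs : (g : Mx)ᵀ = (g : Mx) ∨ (g : Mx)ᵀ = -(g : Mx) := by
    have h2 := hsq
    rw [PSUAut.sq_cU_fU, frobQ_sq, map_one, mul_one, PSUAut.cU_eq_one_iff hF hn h32] at h2
    obtain ⟨c, hc⟩ := h2
    have hc' : (g : Mx) * ((Matrix.GeneralLinearGroup.map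
        ((frobQ hF : RingAut F) : F →+* F) g : GLn) : Mx) = (c : F) • (1 : Mx) := hc
    have hg' := (PSUAut.mem_GU_iff hF g).mp hg
    exact PSUAut.symm_or_skew_of g
      (Matrix.GeneralLinearGroup.map ((frobQ hF : RingAut F) : F →+* F) g)
      (by rw [glmap_coe]; exact hg') c hc'
  obtain ⟨τ, hτ⟩ : ∃ τ : RingAut F, τ = frobQ hF := ⟨_, rfl⟩
  obtain ⟨j, hjdef⟩ : ∃ j : ↥(fixF τ) →+* F, j = (fixF τ).subtype := ⟨_, rfl⟩
  have hj : IsFixEmb (frobQ hF) j := by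
    rw [hjdef, ← hτ]
    exact isFixEmb_fixF τ
  haveI : CharP ↥(fixF τ) r := RingHom.charP j j.injective r
  haveI : Fintype ↥(fixF τ) := Fintype.ofFinite _
  have h2 : (2 : ↥(fixF τ)) ≠ 0 := two_ne_zero_of_char r hr2
  obtain ⟨B, k, hB, hk1, hk2⟩ := exists_data hF (by omega) j hj g hg hs
  obtain ⟨c₁, hc₁⟩ := (pr_eq_iff _ _).mp hk1
  rw [Units.val_mul, sg_coe] at hc₁
  obtain ⟨c₂, hc₂⟩ := (pr_eq_iff _ _).mp hk2
  rw [Units.val_mul, sg_coe, glmapj_coe, itH_coe] at hc₂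
  obtain ⟨G, hGdef⟩ : ∃ G : Matrix (Fin n) (Fin n) ↥(fixF τ),
      G = ((B⁻¹ : GL (Fin n) ↥(fixF τ)) : Matrix (Fin n) (Fin n) ↥(fixF τ)) := ⟨_, rfl⟩
  have hBG : (B : Matrix (Fin n) (Fin n) ↥(fixF τ)) * G = 1 := by
    rw [hGdef]
    exact Units.mul_inv B
  have hGB : G * (B : Matrix (Fin n) (Fin n) ↥(fixF τ)) = 1 := by
    rw [hGdef]
    exact Units.inv_mul B
  have hT2 : (k : Mx)ᵀ * (k : Mx).map (frobQ hF) = (c₂ : F) • G.map j := by
    calc (k : Mx)ᵀ * (k : Mx).map (frobQ hF)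
        = (k : Mx)ᵀ * ((k : Mx).map (frobQ hF) *
            (B : Matrix (Fin n) (Fin n) ↥(fixF τ)).map j) * G.map j := by
          rw [Matrix.mul_assoc, Matrix.mul_assoc, ← mapj_mul, hBG, mapj_one, Matrix.mul_one]
      _ = _ := by
          rw [hc₂, Matrix.mul_smul, Matrix.smul_mul, ← Matrix.transpose_mul, Units.inv_mul,
            Matrix.transpose_one, Matrix.one_mul]
  have hdet : G.det ≠ 0 := by
    intro h0
    have h1 := congrArg Matrix.det hGB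
    rw [Matrix.det_mul, h0, zero_mul, Matrix.det_one] at h1
    exact zero_ne_one h1
  have hG0 : G ≠ 0 := by
    rintro rfl
    apply hdet
    haveI : Nonempty (Fin n) := ⟨⟨0, by omega⟩⟩
    exact Matrix.det_zero
  have hGsym : Gᵀ = G ∨ Gᵀ = -G := by
    rcases hB with hB | hB
    · left
      calc Gᵀ = (Gᵀ * (B : Matrix (Fin n) (Fin n) ↥(fixF τ))ᵀ) * G := by
            rw [hB, Matrix.mul_assoc, hBG, Matrix.mul_one]
        _ = G := by rw [← Matrix.transpose_mul, hBG, Matrix.transpose_one, Matrix.one_mul]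
    · right
      calc Gᵀ = -((Gᵀ * (B : Matrix (Fin n) (Fin n) ↥(fixF τ))ᵀ) * G) := by
            rw [hB, Matrix.mul_neg, Matrix.neg_mul, neg_neg, Matrix.mul_assoc, hBG,
              Matrix.mul_one]
        _ = -G := by rw [← Matrix.transpose_mul, hBG, Matrix.transpose_one, Matrix.one_mul]
  apply no_core_of_trivial'
  intro M hMD hnorm hc a ha
  have hd := gdata_psu hF hn h32 j hj g k hg G hG0 c₁ c₂ c₁.ne_zero c₂.ne_zero hc₁ hT2 𝒢 hinn M
    hMD hnorm hc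
  have htriv : ∀ a₀ ∈ relImage j k M, a₀ = 1 := by
    rcases hGsym with hG | hG
    · exact sym_trivial hn r hrodd h2 hG hdet hd
    · exact alt_trivial hn r hrodd h2 hG hdet hd
  have hcen : a ∈ Subgroup.centralizer
      {(PSUAut.cU (PSUAut.ofGU g hg) * PSUAut.fU (frobQ hF) : MulAut (Cfsg.PSU n F q))} :=
    (hMD ha).2
  rw [Subgroup.mem_centralizer_iff] at hcen
  have hcomm := (hcen _ rfl).symm
  obtain ⟨δ, φ, σ, hδ, hφ, rfl⟩ := hAut a
  obtain ⟨g', hg', rfl⟩ := (PSUAut.innerDiag_iff δ).mp hδ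
  rw [PSUAut.fieldAut_iff] at hφ
  subst hφ
  obtain ⟨a₀, hrel⟩ := Rel.exists_of_comm hF hn h32 j hj g k hg hk1 (PSUAut.ofGU g' hg') σ hcomm
  have ha₀ : a₀ = 1 := htriv a₀ ⟨_, ha, hrel⟩
  rw [ha₀] at hrel
  have hsq' := Rel.sq_eq_one hF (by omega) hj hrel
  have h1 : orderOf (PSUAut.cU (PSUAut.ofGU g' hg') * PSUAut.fU σ : MulAut (Cfsg.PSU n F q)) ∣ 2 :=
    orderOf_dvd_of_pow_eq_one hsq'
  have h2' := Subgroup.orderOf_dvd_natCard M ha
  have h3 : orderOf (PSUAut.cU (PSUAut.ofGU g' hg') * PSUAut.fU σ :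
      MulAut (Cfsg.PSU n F q)) ∣ 1 := by
    rw [← Nat.Coprime.gcd_eq_one hc]
    exact Nat.dvd_gcd h2' h1
  exact orderOf_eq_one_iff.mp (Nat.dvd_one.mp h3)

end Cfsg.Agent.Lib.Helper43.PSUBal
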